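import Cfsg.Agent.Lib.Helper28.TCChain

set_option autoImplicit false

namespace Cfsg.Agent.Lib.Helper93.HeC

/-- relator words for the centraliser `2^{1+6}:L₃(2)` of the involution `e` of He; the letters
`0 … 6` are the involutions `a, b, c, f, g, u = c^(dfed), v = c^(dged)` -/
def W : List (List ℕ) := [
  [0, 1, 0, 1, 0, 1, 0, 1],
  [0, 2, 0, 2],
  [1, 2, 1, 2, 1, 2],
  [0, 3, 0, 3],
  [1, 3, 1, 3],
  [2, 3, 2, 3],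
  [0, 4, 0, 4],
  [1, 4, 1, 4],
  [2, 4, 2, 4],
  [0, 1, 0, 1, 2, 1, 0, 1, 2, 3, 4, 3, 4],
  [2, 5, 2, 5],
  [1, 5, 1, 5, 1, 5],
  [0, 1, 0, 1, 3, 5, 1, 0, 1, 5],
  [1, 2, 1, 4, 5, 1, 2, 4, 5, 1, 2, 4, 5, 4, 1, 5],
  [1, 6, 1, 6, 1, 6],
  [2, 3, 4, 3, 4, 5, 6, 5, 6],
  [0, 1, 0, 1, 4, 6, 1, 0, 1, 6]]
/-- inverse letters -/
def oinv : ℕ → ℕ := fun x => x

end Cfsg.Agent.Lib.Helper93.HeC
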