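import Cfsg.Agent.Lib.Helper93.Sp4.HeSide
import Cfsg.Agent.Lib.Helper93.HeC.Chain
import Cfsg.Agent.Lib.Helper93.HeC.Gen
import Cfsg.Agent.Lib.Helper93.HeC.HeData

/-!
# The centraliser of the involution `e` in the presented Held group (helper93)
-/

set_option autoImplicit false
set_option maxRecDepth 100000

namespace Cfsg.Agent.Lib.Helper93.HeC

open Cfsg.Agent.Lib.Helper28

/-- the Held group -/
abbrev HeG : Type := He2058.Q.Grp

/-- the letters as words in the generators of He; the letter `7` is `e` -/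
def ex : ℕ → List ℕ
  | 0 => [0]
  | 1 => [1]
  | 2 => [2]
  | 3 => [5]
  | 4 => [6]
  | 5 => [3, 4, 5, 3, 2, 3, 5, 4, 3]
  | 6 => [3, 4, 6, 3, 2, 3, 6, 4, 3]
  | 7 => [4]
  | _ => []

theorem ex_lt (x : ℕ) : ∀ y ∈ ex x, y < 7 := by
  unfold ex
  split <;> decide

theorem flatMap_ex_lt (w : List ℕ) : ∀ y ∈ w.flatMap ex, y < 7 := by
  intro y hy
  obtain ⟨x, _, hx⟩ := List.mem_flatMap.mp hy
  exact ex_lt x y hx

/-- values of the letters in He -/
noncomputable def vHe (x : ℕ) : HeG := evalW He2058.Q.val (ex x)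

theorem evalW_vHe (w : List ℕ) : evalW vHe w = evalW He2058.Q.val (w.flatMap ex) := by
  induction w with
  | nil => rfl
  | cons x w ih => rw [evalW_cons, List.flatMap_cons, evalW_append, ih]; rfl

/-- all words to be checked -/
def WA : List (List ℕ) :=
  W ++ (List.range 8).map (fun y => [y, y]) ++ (List.range 7).map (fun y => [y, 7, y, 7])

theorem WA_chk : allBelow (fun c => allList (fun w => He2058.L.checkRel (w.flatMap ex) c) WA) 2058 = true := by
  decide +kernel

theorem vHe_one_of_mem {w : List ℕ} (hw : w ∈ WA) : evalW vHe w = 1 := by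
  rw [evalW_vHe]
  refine He2058.ok.eq_one_of_check He2058.main.2.2 _ (flatMap_ex_lt w) ?_
  intro c hc
  exact allList_iff.mp (allBelow_iff.mp WA_chk c hc) w hw

theorem vHe_W : ∀ w ∈ W, evalW vHe w = 1 := fun _ hw =>
  vHe_one_of_mem (List.mem_append_left _ (List.mem_append_left _ hw))

theorem vHe_inv : ∀ y < 8, vHe y = (vHe y)⁻¹ := by
  intro y hy
  have h : evalW vHe [y, y] = 1 :=
    vHe_one_of_mem (List.mem_append_left _ (List.mem_append_right _
      (List.mem_map.mpr ⟨y, List.mem_range.mpr hy, rfl⟩)))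
  rw [evalW_cons, evalW_cons, evalW_nil, mul_one] at h
  exact (inv_eq_of_mul_eq_one_right h).symm

theorem vHe_oinv : ∀ y < 7, vHe (oinv y) = (vHe y)⁻¹ := fun y hy => vHe_inv y (by omega)

/-- the involution `e` -/
noncomputable def eG : HeG := vHe 7

theorem vHe_comm : ∀ y < 7, vHe y * eG = eG * vHe y := by
  intro y hy
  have h : evalW vHe [y, 7, y, 7] = 1 :=
    vHe_one_of_mem (List.mem_append_right _ (List.mem_map.mpr ⟨y, List.mem_range.mpr hy, rfl⟩))
  simp only [evalW_cons, evalW_nil, mul_one] at h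
  have h1 : vHe y * vHe 7 = (vHe y * vHe 7)⁻¹ := by
    rw [← mul_assoc] at h
    exact (inv_eq_of_mul_eq_one_right h).symm
  rw [mul_inv_rev, ← vHe_inv y (by omega), ← vHe_inv 7 (by omega)] at h1
  exact h1

/-- the subgroup generated by the letters -/
noncomputable def A1 : Subgroup HeG := Sg vHe [0, 1, 2, 3, 4, 5, 6]

/-- the centraliser of `e` -/
noncomputable abbrev CE : Subgroup HeG := Subgroup.centralizer {eG}

theorem A1_le : A1 ≤ CE := by
  unfold A1 Sg
  rw [Subgroup.closure_le]
  rintro _ ⟨x, hx, rfl⟩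
  have hx' : x ∈ [0, 1, 2, 3, 4, 5, 6] := hx
  have hx7 : x < 7 := by
    simp only [List.mem_cons, List.mem_nil_iff, or_false] at hx'
    omega
  exact Subgroup.mem_centralizer_singleton_iff.mpr (vHe_comm x hx7)

instance finHe : Finite HeG := Nat.finite_of_card_ne_zero (by rw [He2058.main.2.1]; norm_num)

/-- the action on the 2058 points -/
@[reducible] noncomputable def actHe : MulAction HeG ℕ := MulAction.compHom ℕ (Prob.phi He2058.ok)

attribute [local instance] actHe

theorem smul_def' (g : HeG) (c : ℕ) : g • c = Prob.phi He2058.ok g c := rfl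

/-- tracing words of He -/
noncomputable def trG (u : List ℕ) (c : ℕ) : ℕ := ptrace He2058.L.pt u c - 1

theorem inv_smul_word (u : List ℕ) (hu : ∀ y ∈ u, y < 7) (c : ℕ) (hc : c < 2058) :
    (evalW He2058.Q.val u)⁻¹ • c = trG u c := by
  rw [smul_def', He2058.ok.phi_word u hu c]
  unfold trG
  have := He2058.ok.valid.ptrace_eq u hu (c := c) hc
  have e : ptrace He2058.L.pt u c = He2058.Q.L.traceN u c + 1 := this
  rw [e]
  rfl

/-- tracing words of the centraliser -/
noncomputable def trH (w : List ℕ) (c : ℕ) : ℕ := trG (w.flatMap ex) c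

theorem levHe_chk : wchain [0, 1, 2, 3, 4, 5, 6] trH 2058 [] levHe = true := by decide +kernel

theorem levHe_prod : (levHe.map (fun l => l.2.length)).prod = 21504 := by decide +kernel

theorem card_A1_ge : 21504 ≤ Nat.card A1 := by
  have h := card_ge_of_wchain (X := ℕ) vHe [0, 1, 2, 3, 4, 5, 6] id (fun _ _ h => h) id 2058 (fun _ _ => rfl) trH
    (by
      intro w _ c hc
      show (evalW vHe w)⁻¹ • c = trH w c
      rw [evalW_vHe]
      exact inv_smul_word _ (flatMap_ex_lt w) c hc) levHe levHe_chk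
  rw [levHe_prod] at h
  exact h

end Cfsg.Agent.Lib.Helper93.HeC
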