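import Cfsg.Agent.Lib.Helper93.HeC.HeSide

/-!
# The order of the centraliser of the involution `e` of the Held group (helper93)

`|C(e)| ≤ 42 · 16 · 32`: `e` fixes 42 of the 2058 points, 16 of them in the suborbit of length 1360, and
`e` has 45 conjugates under the stabiliser (of order 1440) of the two points `0`, `1`.
-/

set_option autoImplicit false
set_option maxRecDepth 100000

namespace Cfsg.Agent.Lib.Helper93.HeC

open Cfsg.Agent.Lib.Helper28

attribute [local instance] actHe

/-- the point stabiliser `Sp₄(4):2` -/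
noncomputable abbrev H0 : Subgroup HeG := Prob.HS He2058.Q He2058.S

theorem card_H0 : Nat.card H0 = 1958400 := Sp4.card_H0

theorem mem_H0_iff (g : HeG) : g ∈ H0 ↔ g • (0 : ℕ) = 0 :=
  ⟨fun h => He2058.ok.index.2.2.2.1 g h, fun h => He2058.ok.index.2.1 g h⟩

theorem smul_lt (g : HeG) {c : ℕ} (hc : c < 2058) : g • c < 2058 := He2058.ok.phi_lt g hc

theorem eG_eq : eG = evalW He2058.Q.val [4] := rfl

theorem eG_smul (c : ℕ) (hc : c < 2058) : eG • c = trG [4] c := by
  have h : eG = (evalW He2058.Q.val [4])⁻¹ := by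
    rw [← eG_eq]; exact vHe_inv 7 (by norm_num)
  rw [h]
  exact inv_smul_word [4] (by decide) c hc

/-- the test for a fixed point of `e` -/
noncomputable def fxE (c : ℕ) : ℕ := Nat.xor (ptrace He2058.L.pt [4] c) (Nat.succ c)

theorem fxE_zero {c : ℕ} (hc : c < 2058) (h : eG • c = c) : fxE c = 0 := by
  rw [eG_smul c hc] at h
  unfold trG at h
  have h1 := He2058.ok.valid.ptrace_eq [4] (by decide) (c := c) hc
  have h2 : ptrace He2058.L.pt [4] c = He2058.Q.L.traceN [4] c + 1 := h1
  unfold fxE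
  have h3 : ptrace He2058.L.pt [4] c = Nat.succ c := by omega
  rw [h3]
  exact Nat.xor_self _

/-- the fixed points of `e` -/
noncomputable def O42 : Finset ℕ := (Finset.range 2058).filter (fun c => fxE c = 0)

theorem cnt42 : countZero fxE 2058 0 = 42 := by decide +kernel

theorem card_O42 : O42.card = 42 := by
  have := countZero_eq fxE 2058 0
  rw [cnt42, zero_add] at this
  exact this.symm

/-- the fixed points of `e` in the suborbit of length 1360 -/
noncomputable def fxE1 (c : ℕ) : ℕ := Nat.add (fxE c) (Nat.xor (He2058.O.oid c) 1)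

noncomputable def O16 : Finset ℕ := (Finset.range 2058).filter (fun c => fxE1 c = 0)

theorem cnt16 : countZero fxE1 2058 0 = 16 := by decide +kernel

theorem card_O16 : O16.card = 16 := by
  have := countZero_eq fxE1 2058 0
  rw [cnt16, zero_add] at this
  exact this.symm

theorem e_fix0 : eG • (0 : ℕ) = 0 := by
  rw [eG_smul 0 (by norm_num)]
  decide +kernel

theorem e_fix1 : eG • (1 : ℕ) = 1 := by
  rw [eG_smul 1 (by norm_num)]
  decide +kernel

theorem fix_of_comm {t : HeG} (ht : t ∈ CE) {c : ℕ} (hc : eG • c = c) : eG • (t • c) = t • c := by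
  have h := Subgroup.mem_centralizer_singleton_iff.mp ht
  rw [← mul_smul, ← h, mul_smul, hc]

theorem stepD : Nat.card CE ≤ 42 * Nat.card (CE ⊓ MulAction.stabilizer HeG (0 : ℕ) : Subgroup HeG) := by
  have h := card_le_of_orbit CE (0 : ℕ) O42 (by
    intro t ht
    have hlt : t • (0 : ℕ) < 2058 := smul_lt t (by norm_num)
    exact Finset.mem_filter.mpr ⟨Finset.mem_range.mpr hlt, fxE_zero hlt (fix_of_comm ht e_fix0)⟩)
  rwa [card_O42] at h

theorem oid1 : He2058.O.oid 1 = 1 := by decide +kernel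

theorem stepE : Nat.card (CE ⊓ MulAction.stabilizer HeG (0 : ℕ) : Subgroup HeG) ≤
    16 * Nat.card ((CE ⊓ MulAction.stabilizer HeG (0 : ℕ)) ⊓ MulAction.stabilizer HeG (1 : ℕ) : Subgroup HeG) := by
  have h := card_le_of_orbit (CE ⊓ MulAction.stabilizer HeG (0 : ℕ)) (1 : ℕ) O16 (by
    intro t ht
    have hlt : t • (1 : ℕ) < 2058 := smul_lt t (by norm_num)
    have h0 : t ∈ H0 := (mem_H0_iff t).mpr ht.2
    have ho : He2058.O.oid (t • (1 : ℕ)) = 1 := by
      have := He2058.ok.oid_inv He2058.O He2058.O_ok He2058.hS1 t h0 1 (show 1 < 2058 by norm_num)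
      rw [oid1] at this
      exact this
    refine Finset.mem_filter.mpr ⟨Finset.mem_range.mpr hlt, ?_⟩
    unfold fxE1
    rw [fxE_zero hlt (fix_of_comm ht.1 e_fix1), ho]
    rfl)
  rwa [card_O16] at h

/-- the stabiliser of the points `0` and `1` -/
noncomputable abbrev H1 : Subgroup HeG := H0 ⊓ MulAction.stabilizer HeG (1 : ℕ)

theorem card_H1 : Nat.card H1 ≤ 1440 := by
  let O : Finset ℕ := (Finset.range 2058).filter (fun c => He2058.O.oid c = 1)
  have hcard : O.card = 1360 := by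
    have := Orb.count_eq He2058.O He2058.Q 1
    rw [He2058.count_1] at this
    exact this.symm
  obtain ⟨k1, hk1, e1⟩ := He2058.ok.reach He2058.O He2058.O_ok He2058.hS1 _ 1 rfl (show 1 < 2058 by norm_num)
  rw [oid1] at e1
  have hO : ∀ c ∈ O, ∃ t ∈ H0, t • (1 : ℕ) = c := by
    intro c hc
    obtain ⟨hc1, hc2⟩ := Finset.mem_filter.mp hc
    obtain ⟨k, hk, e⟩ := He2058.ok.reach He2058.O He2058.O_ok He2058.hS1 _ c rfl (Finset.mem_range.mp hc1)
    rw [hc2] at e
    refine ⟨k * k1⁻¹, H0.mul_mem hk (H0.inv_mem hk1), ?_⟩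
    have e1' : k1 • (nth He2058.O.roots He2058.Q.n 1) = 1 := e1
    have e' : k • (nth He2058.O.roots He2058.Q.n 1) = c := e
    have e2 : k1⁻¹ • (1 : ℕ) = nth He2058.O.roots He2058.Q.n 1 := by rw [inv_smul_eq_iff, e1']
    rw [mul_smul, e2, e']
  have h := card_ge_of_orbit H0 inferInstance (1 : ℕ) O hO
  rw [hcard, card_H0] at h
  have h2 : 1360 * Nat.card H1 ≤ 1958400 := h
  omega

theorem conjW_chk : ∀ w ∈ conjW, (∀ y ∈ w, y < 7) ∧ trG w 0 = 0 ∧ trG w 1 = 1 := by decide +kernel

/-- the word of a conjugate -/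
def cw (w : List ℕ) : List ℕ := invrev HePD.inv w ++ 4 :: w

theorem conjW_nodup : (conjW.map (fun w => trG (cw w) 15)).Nodup := by decide +kernel

theorem cw_lt {w : List ℕ} (hw : ∀ y ∈ w, y < 7) : ∀ y ∈ cw w, y < 7 := by
  intro y hy
  unfold cw at hy
  rcases List.mem_append.mp hy with h | h
  · obtain ⟨z, hz, rfl⟩ := mem_invrev h
    exact (He2058.ok.pd.inv z (hw z hz)).1
  · rcases List.mem_cons.mp h with rfl | h
    · norm_num
    · exact hw y h

theorem evalW_cw {w : List ℕ} (hw : ∀ y ∈ w, y < 7) :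
    evalW He2058.Q.val (cw w) = (evalW He2058.Q.val w)⁻¹ * eG * ((evalW He2058.Q.val w)⁻¹)⁻¹ := by
  unfold cw
  rw [evalW_append, evalW_cons, evalW_invrev (inv := HePD.inv) (Kall := 7) He2058.ok.val_inv w hw, inv_inv, eG_eq, evalW_cons, evalW_nil,
    mul_one, mul_assoc]

theorem stepC : Nat.card (H1 ⊓ CE : Subgroup HeG) ≤ 32 := by
  have h := card_conj_le H1 eG (conjW.map (fun w => (evalW He2058.Q.val w)⁻¹))
    (by
      intro t ht
      obtain ⟨w, hw, rfl⟩ := List.mem_map.mp ht
      obtain ⟨h1, h2, h3⟩ := conjW_chk w hw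
      refine ⟨(mem_H0_iff _).mpr ?_, ?_⟩
      · rw [inv_smul_word w h1 0 (by norm_num), h2]
      · show (evalW He2058.Q.val w)⁻¹ • (1 : ℕ) = 1
        rw [inv_smul_word w h1 1 (by norm_num), h3])
    (by
      rw [List.map_map]
      apply List.Nodup.of_map (fun g : HeG => g⁻¹ • (15 : ℕ))
      rw [List.map_map]
      have e : conjW.map ((fun g : HeG => g⁻¹ • (15 : ℕ)) ∘ ((fun t => t * eG * t⁻¹) ∘
          fun w => (evalW He2058.Q.val w)⁻¹)) = conjW.map (fun w => trG (cw w) 15) := by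
        apply List.map_congr_left
        intro w hw
        obtain ⟨h1, _, _⟩ := conjW_chk w hw
        show ((evalW He2058.Q.val w)⁻¹ * eG * ((evalW He2058.Q.val w)⁻¹)⁻¹)⁻¹ • (15 : ℕ) = trG (cw w) 15
        rw [← evalW_cw h1]
        exact inv_smul_word _ (cw_lt h1) 15 (by norm_num)
      rw [e]
      exact conjW_nodup)
  rw [List.length_map] at h
  have h45 : conjW.length = 45 := by decide +kernel
  rw [h45] at h
  have h' : 45 * Nat.card (H1 ⊓ CE : Subgroup HeG) ≤ Nat.card H1 := h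
  have := card_H1
  omega

theorem card_CE_le : Nat.card CE ≤ 21504 := by
  have hle : ((CE ⊓ MulAction.stabilizer HeG (0 : ℕ)) ⊓ MulAction.stabilizer HeG (1 : ℕ) : Subgroup HeG) ≤
      H1 ⊓ CE := by
    intro g hg
    exact ⟨⟨(mem_H0_iff g).mpr hg.1.2, hg.2⟩, hg.1.1⟩
  have h1 := Subgroup.card_le_of_le hle
  have h2 := stepC
  have h3 := stepD
  have h4 := stepE
  omega

theorem A1_eq : A1 = CE := by
  apply Subgroup.eq_of_le_of_card_ge A1_le
  exact le_trans card_CE_le card_A1_ge

theorem card_A1 : Nat.card A1 = 21504 := by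
  have h1 := card_A1_ge
  have h2 := card_CE_le
  rw [← A1_eq] at h2
  omega

theorem eG_ne_one : eG ≠ 1 := by
  intro h
  have h1 : eG • (15 : ℕ) = 15 := by rw [h, one_smul]
  rw [eG_smul 15 (by norm_num)] at h1
  revert h1
  decide +kernel

theorem orderOf_eG : orderOf eG = 2 := by
  apply orderOf_eq_prime
  · rw [pow_two]
    nth_rewrite 1 [show eG = eG⁻¹ from vHe_inv 7 (by norm_num)]
    exact inv_mul_cancel _
  · exact eG_ne_one

end Cfsg.Agent.Lib.Helper93.HeC
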