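import Cfsg.Agent.S0445
import Cfsg.Agent.Lib.Helper93.HeC.Chain
import Cfsg.Agent.Lib.Helper93.HeC.Gen
import Cfsg.Agent.Lib.Helper93.HeC.MatData

/-!
# The centraliser of a transvection in `SL₅(2)`, generated by seven involutions (helper93)
-/

set_option autoImplicit false
set_option maxRecDepth 100000

namespace Cfsg.Agent.Lib.Helper93.HeC

open Cfsg.Agent.Lib.Helper28

abbrev M5 : Type := Matrix (Fin 5) (Fin 5) (ZMod 2)
abbrev SL5 : Type := Matrix.SpecialLinearGroup (Fin 5) (ZMod 2)
/-- row vectors (a synonym, to keep other actions away) -/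
def V5 : Type := Fin 5 → ZMod 2

instance instFintypeV5 : Fintype V5 := inferInstanceAs (Fintype (Fin 5 → ZMod 2))
instance instDecEqV5 : DecidableEq V5 := inferInstanceAs (DecidableEq (Fin 5 → ZMod 2))

/-- multiplication of a row vector by a matrix -/
def vm (v : V5) (M : M5) : V5 := Matrix.vecMul (v : Fin 5 → ZMod 2) M

theorem vm_one (v : V5) : vm v 1 = v := Matrix.vecMul_one _
theorem vm_vm (v : V5) (M N : M5) : vm (vm v M) N = vm v (M * N) := Matrix.vecMul_vecMul _ _ _

theorem Mx_sq : ∀ x < 7, Mx x * Mx x = 1 := by decide +kernel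

theorem sq_one (a : ZMod 2) (h : a * a = 1) : a = 1 := by
  revert a; decide

theorem Mx_det (x : ℕ) (hx : x < 7) : (Mx x).det = 1 := by
  apply sq_one
  rw [← Matrix.det_mul, Mx_sq x hx, Matrix.det_one]

theorem Mx_ge (x : ℕ) (hx : ¬ x < 7) : Mx x = 1 := by
  unfold Mx
  split <;> first | omega | rfl

theorem Mx_det' (x : ℕ) : (Mx x).det = 1 := by
  by_cases h : x < 7
  · exact Mx_det x h
  · rw [Mx_ge x h, Matrix.det_one]

/-- the letters in `SL₅(2)` -/
noncomputable def vM (x : ℕ) : SL5 := ⟨Mx x, Mx_det' x⟩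

theorem coe_vM (x : ℕ) : ((vM x : SL5) : M5) = Mx x := rfl

theorem coe_evalW (w : List ℕ) : ((evalW vM w : SL5) : M5) = (w.map Mx).prod := by
  induction w with
  | nil => rfl
  | cons x w ih =>
    rw [evalW_cons, Matrix.SpecialLinearGroup.coe_mul, coe_vM, ih, List.map_cons, List.prod_cons]

theorem W_chk : ∀ w ∈ W, (w.map Mx).prod = 1 := by decide +kernel

theorem vM_W : ∀ w ∈ W, evalW vM w = 1 := by
  intro w hw
  apply Subtype.ext
  rw [coe_evalW, W_chk w hw]
  rfl

theorem vM_oinv : ∀ y < 7, vM (oinv y) = (vM y)⁻¹ := by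
  intro y hy
  have h : vM y * vM y = 1 := by
    apply Subtype.ext
    rw [Matrix.SpecialLinearGroup.coe_mul, coe_vM, Mx_sq y hy]
    rfl
  exact (inv_eq_of_mul_eq_one_right h).symm

theorem comm_chk : ∀ x < 7, Mx x * Matrix.transvection 0 1 1 = Matrix.transvection 0 1 1 * Mx x := by
  decide +kernel

/-- the subgroup generated by the letters -/
noncomputable def A2 : Subgroup SL5 := Sg vM [0, 1, 2, 3, 4, 5, 6]

theorem A2_le (s : SL5) (hs : (s : M5) = Matrix.transvection 0 1 1) : A2 ≤ Subgroup.centralizer {s} := by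
  unfold A2 Sg
  rw [Subgroup.closure_le]
  rintro _ ⟨x, hx, rfl⟩
  have hx' : x ∈ [0, 1, 2, 3, 4, 5, 6] := hx
  have hx7 : x < 7 := by
    simp only [List.mem_cons, List.mem_nil_iff, or_false] at hx'
    omega
  apply Subgroup.mem_centralizer_singleton_iff.mpr
  apply Subtype.ext
  rw [Matrix.SpecialLinearGroup.coe_mul, Matrix.SpecialLinearGroup.coe_mul, coe_vM, hs]
  exact comm_chk x hx7

/-- the action on row vectors -/
noncomputable instance actM : MulAction SL5 V5 where
  smul g v := vm v ((g⁻¹ : SL5) : M5)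
  one_smul v := by
    show vm v (((1 : SL5)⁻¹ : SL5) : M5) = v
    rw [inv_one, Matrix.SpecialLinearGroup.coe_one, vm_one]
  mul_smul g h v := by
    show vm v (((g * h)⁻¹ : SL5) : M5) = vm (vm v ((h⁻¹ : SL5) : M5)) ((g⁻¹ : SL5) : M5)
    rw [mul_inv_rev, Matrix.SpecialLinearGroup.coe_mul, vm_vm]

theorem smul_def'' (g : SL5) (v : V5) : g • v = vm v ((g⁻¹ : SL5) : M5) := rfl

theorem inv_smul_def (g : SL5) (v : V5) : g⁻¹ • v = vm v (g : M5) := by
  rw [smul_def'', inv_inv]

/-- the code of a vector -/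
def code (v : V5) : ℕ := (v 0).val + 2 * (v 1).val + 4 * (v 2).val + 8 * (v 3).val + 16 * (v 4).val

/-- the vector of a code -/
def enc (c : ℕ) : V5 := fun i => if c.testBit i then 1 else 0

theorem code_inj : Function.Injective code := by decide +kernel

theorem code_enc : ∀ c < 32, code (enc c) = c := by decide +kernel

/-- the table of a letter -/
def tabM (x c : ℕ) : ℕ := Nat.land (Nat.shiftRight (tabP x) (Nat.mul 5 c)) 31

theorem bridge : ∀ x < 7, ∀ c < 32, vm (enc c) (Mx x) = enc (tabM x c) ∧ tabM x c < 32 := by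
  decide +kernel

/-- tracing a word -/
def trM : List ℕ → ℕ → ℕ
  | [], c => c
  | x :: w, c => trM w (tabM x c)

theorem vecMul_word (w : List ℕ) (hw : ∀ y ∈ w, y < 7) : ∀ c < 32,
    vm (enc c) (w.map Mx).prod = enc (trM w c) ∧ trM w c < 32 := by
  induction w with
  | nil =>
    intro c hc
    exact ⟨vm_one _, hc⟩
  | cons x w ih =>
    intro c hc
    obtain ⟨h1, h2⟩ := bridge x (hw x List.mem_cons_self) c hc
    rw [List.map_cons, List.prod_cons, ← vm_vm, h1]
    exact ih (fun y hy => hw y (List.mem_cons_of_mem _ hy)) _ h2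

theorem levM_chk : wchain [0, 1, 2, 3, 4, 5, 6] trM 32 [] levM = true := by decide +kernel

theorem levM_prod : (levM.map (fun l => l.2.length)).prod = 21504 := by decide +kernel

theorem card_A2_ge : 21504 ≤ Nat.card A2 := by
  have h := card_ge_of_wchain (X := V5) vM [0, 1, 2, 3, 4, 5, 6] code code_inj enc 32 code_enc trM
    (by
      intro w hw c hc
      have hw7 : ∀ y ∈ w, y < 7 := by
        intro y hy
        have := hw y hy
        simp only [List.mem_cons, List.mem_nil_iff, or_false] at this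
        omega
      obtain ⟨h1, h2⟩ := vecMul_word w hw7 c hc
      rw [inv_smul_def, coe_evalW, h1, code_enc _ h2]) levM levM_chk
  rw [levM_prod] at h
  exact h

theorem A2_eq (s : SL5) (hs : (s : M5) = Matrix.transvection 0 1 1) : A2 = Subgroup.centralizer {s} := by
  apply Subgroup.eq_of_le_of_card_ge (A2_le s hs)
  rw [Cfsg.Agent.S0445.result s hs]
  exact card_A2_ge

theorem card_A2 : Nat.card A2 = 21504 := by
  obtain ⟨s, hs⟩ : ∃ s : SL5, (s : M5) = Matrix.transvection 0 1 1 :=
    ⟨⟨Matrix.transvection 0 1 1, Matrix.det_transvection_of_ne 0 1 (by decide) 1⟩, rfl⟩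
  rw [A2_eq s hs, Cfsg.Agent.S0445.result s hs]

end Cfsg.Agent.Lib.Helper93.HeC
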